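import Groth.Agent.Gaga.H976.Defs2
import Groth.Agent.FormalB.PullCoh

/-!
# Inverse images of algebraic analytic sheaves are algebraic

`alg_pull`: for a morphism `f` over `ℂ` and a left adjoint `L` of the direct image along `f^an`,
`L N` is the analytification of a coherent sheaf if `N` is.
-/

set_option autoImplicit false

open CategoryTheory AlgebraicGeometry TopologicalSpace Opposite

noncomputable section

namespace Groth.Agent.Gaga.H703.AlgPull

open Groth.Agent.Gaga.H975.ModSec Groth.Agent.Gaga.H986.Stalk Groth.Agent.Gaga.H986.Pull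
open Groth.Agent.Gaga.H976.Defs Groth.Agent.Gaga.H976.Defs2 Groth.Agent.Gaga.H976.Quot
open Groth.Agent.Gaga.H986.Nak Groth.Agent.Gaga.H976.FPS

/-- Direct images of modules, in the two forms. -/
def pushIso {W P : Scheme.{0}} (f : W ⟶ P) :
    An.pushMod f ≅ Scheme.Modules.pushforward f :=
  Iso.refl _

/-- Analytification commutes with inverse images. -/
def anPullIso {W P : Scheme.{0}} [W.Over An.SC] [P.Over An.SC] (f : W ⟶ P) [f.IsOver An.SC]
    {L : An.AnMod P ⥤ An.AnMod W} (adj : L ⊣ An.anPushMap f) :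
    An.analytify P ⋙ L ≅ Scheme.Modules.pullback f ⋙ An.analytify W :=
  ((An.analytifyAdj P).comp adj).leftAdjointUniq
    (((Scheme.Modules.pullbackPushforwardAdjunction f).comp (An.analytifyAdj W)).ofNatIsoRight
      (Functor.isoWhiskerLeft (An.anPush W) (pushIso f).symm ≪≫ An.pushCompIso f))

/-- [LF] -/
theorem alg_pull {W P : Scheme.{0}} [W.Over An.SC] [P.Over An.SC] [IsLocallyNoetherian W]
    [IsLocallyNoetherian P] (f : W ⟶ P) [f.IsOver An.SC] {L : An.AnMod P ⥤ An.AnMod W}
    (adj : L ⊣ An.anPushMap f) {N : An.AnMod P} (hN : Alg N) : Alg (L.obj N) := by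
  obtain ⟨M, hM, ⟨e⟩⟩ := hN
  exact ⟨(Scheme.Modules.pullback f).obj M,
    Groth.Agent.FormalB.PullCoh.isCoh_pullback f hM,
    ⟨((anPullIso f adj).app M).symm ≪≫ L.mapIso e⟩⟩

end Groth.Agent.Gaga.H703.AlgPull
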